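import Mathlib
import Cfsg.Agent.H7.AbelianCA.Final
import Cfsg.Agent.H22.Frobenius
import Cfsg.Agent.H6.Basic
import Cfsg.Agent.H31.PSLRingEquiv
import Cfsg.Agent.S0205

/-!
# Simple groups all of whose non-abelian subgroups are self-normalising
-/

set_option autoImplicit false

namespace Cfsg.Agent.H7.SelfNormal

variable {G : Type*} [Group G] [Finite G]

/-- Every non-abelian subgroup is its own normaliser. -/
def SelfNorm (G : Type*) [Group G] : Prop :=
  ∀ H : Subgroup G, ¬ IsMulCommutative H → Subgroup.normalizer (H : Set G) = H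

lemma comm_mem {K : Subgroup G} (hK : IsMulCommutative K) {a b : G} (ha : a ∈ K) (hb : b ∈ K) :
    a * b = b * a := by
  haveI := hK
  exact congrArg Subtype.val (mul_comm' (⟨a, ha⟩ : K) ⟨b, hb⟩)

omit [Finite G] in
lemma isComm_of {K : Subgroup G} (h : ∀ a ∈ K, ∀ b ∈ K, a * b = b * a) : IsMulCommutative K :=
  ⟨⟨fun a b => Subtype.ext (h a a.2 b b.2)⟩⟩

omit [Finite G] in
/-- A proper normal subgroup of any subgroup is abelian. -/
lemma comm_of_normal (hSN : SelfNorm G) {K L : Subgroup G} (hKL : K ≤ L)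
    (hn : L ≤ Subgroup.normalizer (K : Set G)) (hne : K ≠ L) : IsMulCommutative K := by
  by_contra h
  exact hne (le_antisymm hKL (hn.trans (hSN K h).le))

omit [Finite G] in
lemma normalizer_le_normalizer_centralizer (Q : Subgroup G) :
    Subgroup.normalizer (Q : Set G) ≤
      Subgroup.normalizer ((Subgroup.centralizer (Q : Set G) : Subgroup G) : Set G) := by
  have key : ∀ g ∈ Subgroup.normalizer (Q : Set G), ∀ c ∈ Subgroup.centralizer (Q : Set G),
      g * c * g⁻¹ ∈ Subgroup.centralizer (Q : Set G) := by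
    intro g hg c hc
    refine Subgroup.mem_centralizer_iff.2 fun q hq => ?_
    have hq' : g⁻¹ * q * g ∈ Q := by
      have := (Subgroup.mem_normalizer_iff.1 (inv_mem hg) q).1 hq
      rwa [inv_inv] at this
    have h1 := Subgroup.mem_centralizer_iff.1 hc _ hq'
    calc q * (g * c * g⁻¹) = g * ((g⁻¹ * q * g) * c) * g⁻¹ := by group
      _ = g * (c * (g⁻¹ * q * g)) * g⁻¹ := by rw [h1]
      _ = g * c * g⁻¹ * q := by group
  intro g hg
  refine Subgroup.mem_normalizer_iff.2 fun c => ⟨key g hg c, fun hc => ?_⟩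
  have := key g⁻¹ (inv_mem hg) _ hc
  rwa [inv_inv, show g⁻¹ * (g * c * g⁻¹) * g = c by group] at this

lemma isCyclic_conj_comm {S T : Sylow 2 G} (hT : IsMulCommutative (T : Subgroup G)) :
    IsMulCommutative (S : Subgroup G) := by
  haveI : Fact (Nat.Prime 2) := ⟨Nat.prime_two⟩
  haveI := hT
  let e := Sylow.equiv S T
  exact ⟨⟨fun a b => e.injective (by rw [map_mul, map_mul]; exact mul_comm' _ _)⟩⟩

/-- No normal 2-complement. -/
lemma no_complement [IsSimpleGroup G] (hna : ¬ IsMulCommutative G) (h2 : 2 ∣ Nat.card G) :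
    ¬ Cfsg.HasNormalPComplement 2 G := by
  haveI : Fact (Nat.Prime 2) := ⟨Nat.prime_two⟩
  rintro ⟨P, N, hN, hc⟩
  rcases hN.eq_bot_or_eq_top with h | h <;> subst h
  · have hP : (P : Subgroup G) = ⊤ := Subgroup.isComplement'_bot_left.1 hc
    have hp : IsPGroup 2 G := by
      intro g
      obtain ⟨k, hk⟩ := P.2 ⟨g, hP ▸ Subgroup.mem_top g⟩
      exact ⟨k, congrArg Subtype.val hk⟩
    haveI : Nontrivial G := IsSimpleGroup.toNontrivial
    have hZ := hp.bot_lt_center.ne'
    rcases (Subgroup.instNormalCenter (G := G)).eq_bot_or_eq_top with h | h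
    · exact hZ h
    · exact hna ⟨⟨fun a b => Subgroup.mem_center_iff.1 (h ▸ Subgroup.mem_top b) a⟩⟩
  · have hP : (P : Subgroup G) = ⊥ := Subgroup.isComplement'_top_left.1 hc
    exact P.ne_bot_of_dvd_card h2 hP

/-- The Sylow 2-subgroups are abelian. -/
lemma sylow_comm [IsSimpleGroup G] (hna : ¬ IsMulCommutative G) (hSN : SelfNorm G) (S : Sylow 2 G) :
    IsMulCommutative (S : Subgroup G) := by
  haveI : Fact (Nat.Prime 2) := ⟨Nat.prime_two⟩
  by_contra hnS
  have h2 : 2 ∣ Nat.card G := by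
    by_contra hd
    refine hnS ⟨⟨fun a b => ?_⟩⟩
    haveI : Subsingleton (S : Subgroup G) := (Nat.card_eq_one_iff_unique.1 (by
      rw [S.card_eq_multiplicity, Nat.factorization_eq_zero_of_not_dvd hd, pow_zero])).1
    exact Subsingleton.elim _ _
  refine no_complement hna h2 (H22.hasNormalPComplement_of_frobenius
    (H22.frobeniusCondition_of_sylow S ?_))
  intro Q hQS g hg hgo
  have hgodd : Odd (orderOf g) := Nat.coprime_two_right.1 hgo
  by_cases hQ : Q = (S : Subgroup G)
  · subst hQ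
    have hgS : g ∈ (S : Subgroup G) := hSN _ hnS ▸ hg
    obtain ⟨k, hk⟩ := S.2 ⟨g, hgS⟩
    have hk' : g ^ 2 ^ k = 1 := congrArg Subtype.val hk
    rw [orderOf_eq_one_iff.1 (Nat.eq_one_of_dvd_coprimes (hgo.pow_right k) dvd_rfl
      (orderOf_dvd_of_pow_eq_one hk'))]
    exact one_mem _
  by_contra hgC
  -- a subgroup of index two of `S` containing `Q`
  obtain ⟨k, hk⟩ := IsPGroup.iff_card.1 S.2
  obtain ⟨i, hi⟩ := IsPGroup.iff_card.1 (S.2.to_le hQS)
  have hlt : Nat.card Q < Nat.card (S : Subgroup G) :=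
    lt_of_not_ge fun hge => hQ (Subgroup.eq_of_le_of_card_ge hQS hge)
  have hik : i < k := by
    rw [hi, hk] at hlt
    exact (Nat.pow_lt_pow_iff_right (by norm_num)).1 hlt
  obtain ⟨M₀, hM₀, hQM₀⟩ := Sylow.exists_subgroup_card_pow_prime_le 2 (n := i) (m := k - 1)
    (by rw [hk]; exact pow_dvd_pow 2 (Nat.sub_le k 1))
    (Q.subgroupOf (S : Subgroup G))
    (by rw [Nat.card_congr (Subgroup.subgroupOfEquivOfLe hQS).toEquiv, hi]) (by omega)
  set M : Subgroup G := M₀.map (S : Subgroup G).subtype with hMdef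
  have hMcard : Nat.card M = 2 ^ (k - 1) := by
    rw [hMdef, ← Nat.card_congr (M₀.equivMapOfInjective _ (Subgroup.subtype_injective _)).toEquiv,
      hM₀]
  have hMS : M ≤ S := Subgroup.map_subtype_le _
  have hk2 : 2 ^ k = 2 * 2 ^ (k - 1) := by
    rw [← pow_succ', show k - 1 + 1 = k by omega]
  have hQM : Q ≤ M := fun q hq => ⟨⟨q, hQS hq⟩, hQM₀ hq, rfl⟩
  haveI : M₀.Normal := by
    refine Subgroup.normal_of_index_eq_two ?_
    have h1 := M₀.card_mul_index
    rw [hM₀, hk, hk2, mul_comm] at h1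
    exact Nat.eq_of_mul_eq_mul_right (by positivity) h1
  have hSM : (S : Subgroup G) ≤ Subgroup.normalizer (M : Set G) := by
    refine (Subgroup.normal_subgroupOf_iff_le_normalizer hMS).1 ?_
    rw [hMdef, Subgroup.subgroupOf, Subgroup.comap_map_eq_self_of_injective
      (Subgroup.subtype_injective _)]
    infer_instance
  have hMne : M ≠ (S : Subgroup G) := fun e => by
    have h1 : Nat.card M = Nat.card (S : Subgroup G) := by rw [e]
    rw [hMcard, hk, hk2] at h1
    have : 0 < 2 ^ (k - 1) := by positivity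
    omega
  have hMab := comm_of_normal hSN hMS hSM hMne
  -- the centraliser of `Q`
  set C := Subgroup.centralizer (Q : Set G) with hC
  have hMC : M ≤ C := fun m hm => Subgroup.mem_centralizer_iff.2 fun q hq =>
    comm_mem hMab (hQM hq) hm
  have hCL : C ≤ Subgroup.normalizer (Q : Set G) := Subgroup.centralizer_le_normalizer _
  have hCne : C ≠ Subgroup.normalizer (Q : Set G) := fun e => hgC (e ▸ hg)
  have hCab := comm_of_normal hSN hCL (normalizer_le_normalizer_centralizer Q) hCne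
  have hM2 : IsPGroup 2 M := S.2.to_le hMS
  -- the 2-elements of the centraliser lie in `M`
  have hmemM : ∀ x ∈ C, (∃ j : ℕ, x ^ 2 ^ j = 1) → x ∈ M := by
    rintro x hx ⟨j, hj⟩
    by_contra hxM
    obtain ⟨l, -, hl⟩ := (Nat.dvd_prime_pow Nat.prime_two).1 (orderOf_dvd_of_pow_eq_one hj)
    have hxp : IsPGroup 2 (Subgroup.zpowers x) :=
      IsPGroup.of_card (n := l) (by rw [Nat.card_zpowers, hl])
    have hn : Subgroup.zpowers x ≤ Subgroup.normalizer (M : Set G) := by
      refine le_trans (Subgroup.zpowers_le.2 ?_) (Subgroup.centralizer_le_normalizer _)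
      exact Subgroup.mem_centralizer_iff.2 fun m hm => comm_mem hCab (hMC hm) hx
    obtain ⟨T, hT⟩ := (hxp.to_sup_of_normal_right' hM2 hn).exists_le_sylow
    set R := Subgroup.zpowers x ⊔ M with hR
    have hRC : R ≤ C := sup_le (Subgroup.zpowers_le.2 hx) hMC
    have hlt : M < R := lt_of_le_of_ne le_sup_right fun e =>
      hxM (e ▸ Subgroup.mem_sup_left (Subgroup.mem_zpowers x))
    obtain ⟨r, hr⟩ := IsPGroup.iff_card.1 (T.2.to_le hT)
    have hrk : k ≤ r := by
      have h1 : Nat.card M < Nat.card R :=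
        lt_of_not_ge fun hge => hlt.ne (Subgroup.eq_of_le_of_card_ge hlt.le hge)
      rw [hMcard, hr] at h1
      have := (Nat.pow_lt_pow_iff_right (by norm_num)).1 h1
      omega
    have hTR : (T : Subgroup G) = R := (Subgroup.eq_of_le_of_card_ge hT (by
      rw [hr, Nat.card_congr (Sylow.equiv T S).toEquiv, hk]
      exact Nat.pow_le_pow_right two_pos hrk)).symm
    refine hnS (isCyclic_conj_comm (T := T) (isComm_of fun a ha b hb => ?_))
    rw [hTR] at ha hb
    exact comm_mem hCab (hRC ha) (hRC hb)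
  have hgM : g ∈ Subgroup.normalizer (M : Set G) := by
    have key : ∀ y : G, y ∈ Subgroup.normalizer (Q : Set G) → ∀ m ∈ M, y * m * y⁻¹ ∈ M := by
      intro y hy m hm
      refine hmemM _ ((Subgroup.mem_normalizer_iff.1 (normalizer_le_normalizer_centralizer Q hy)
        m).1 (hMC hm)) ?_
      obtain ⟨j, hj⟩ := hM2 ⟨m, hm⟩
      exact ⟨j, by rw [conj_pow, show m ^ 2 ^ j = 1 from congrArg Subtype.val hj]; group⟩
    refine Subgroup.mem_normalizer_iff.2 fun m => ⟨key g hg m, fun hm => ?_⟩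
    have := key g⁻¹ (inv_mem hg) _ hm
    rwa [inv_inv, show g⁻¹ * (g * m * g⁻¹) * g = m by group] at this
  -- a normal subgroup of index two of the normaliser of `M`
  set L := Subgroup.normalizer (M : Set G) with hL
  set D := Subgroup.centralizer (M : Set G) with hD
  have hgD : g ∉ D := fun hgd => hgC (Subgroup.mem_centralizer_iff.2 fun q hq =>
    Subgroup.mem_centralizer_iff.1 hgd q (hQM hq))
  have hDL : D ≤ L := Subgroup.centralizer_le_normalizer _
  have hDab : IsMulCommutative D :=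
    comm_of_normal hSN hDL (normalizer_le_normalizer_centralizer M) (fun e => hgD (e ▸ hgM))
  obtain ⟨x, hxS, hxM⟩ : ∃ x ∈ (S : Subgroup G), x ∉ M :=
    Set.not_subset.1 fun hle => hMne (le_antisymm hMS hle)
  have hxD : x ∉ D := by
    intro hxd
    refine hxM (hmemM x (Subgroup.mem_centralizer_iff.2 fun q hq =>
      Subgroup.mem_centralizer_iff.1 hxd q (hQM hq)) ?_)
    obtain ⟨j, hj⟩ := S.2 ⟨x, hxS⟩
    exact ⟨j, congrArg Subtype.val hj⟩
  haveI : (D.subgroupOf L).Normal :=
    (Subgroup.normal_subgroupOf_iff_le_normalizer hDL).2 (normalizer_le_normalizer_centralizer M)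
  set f := QuotientGroup.mk' (D.subgroupOf L) with hf
  have hfD : ∀ y : L, f y = 1 ↔ (y : G) ∈ D := fun y => by
    rw [hf, QuotientGroup.mk'_apply, QuotientGroup.eq_one_iff, Subgroup.mem_subgroupOf]
  let P : Sylow 2 (L ⧸ D.subgroupOf L) :=
    (S.subtype hSM).mapSurjective (QuotientGroup.mk'_surjective _)
  have hMD : ∀ y ∈ M, y ∈ D := fun y hy => Subgroup.mem_centralizer_iff.2 fun m hm =>
    comm_mem hMab hm hy
  set x' : L := ⟨x, hSM hxS⟩ with hx'
  have hidx : M₀.index = 2 := by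
    have h1 := M₀.card_mul_index
    rw [hM₀, hk, hk2, mul_comm] at h1
    exact Nat.eq_of_mul_eq_mul_right (by positivity) h1
  have hPz : (P : Subgroup (L ⧸ D.subgroupOf L)) = Subgroup.zpowers (f x') := by
    refine le_antisymm ?_ (Subgroup.zpowers_le.2 ⟨x', hxS, rfl⟩)
    rintro _ ⟨y, hy, rfl⟩
    by_cases hyM : (y : G) ∈ M
    · rw [(hfD y).2 (hMD _ hyM)]; exact one_mem _
    · have hxy : (x : G)⁻¹ * y ∈ M := by
        have h1 : (⟨x, hxS⟩ : (S : Subgroup G))⁻¹ * ⟨y, hy⟩ ∈ M₀ := by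
          have hxn : (⟨x, hxS⟩ : (S : Subgroup G)) ∉ M₀ := fun h0 => hxM ⟨_, h0, rfl⟩
          have hyn : (⟨y, hy⟩ : (S : Subgroup G)) ∉ M₀ := fun h0 => hyM ⟨_, h0, rfl⟩
          rw [Subgroup.mul_mem_iff_of_index_two hidx, inv_mem_iff]
          exact iff_of_false hxn hyn
        exact ⟨_, h1, rfl⟩
      have h2 : f (x'⁻¹ * y) = 1 := (hfD _).2 (hMD _ hxy)
      rw [map_mul, map_inv, inv_mul_eq_one] at h2
      rw [← h2]
      exact Subgroup.mem_zpowers _
  haveI hPc : IsCyclic (P : Subgroup (L ⧸ D.subgroupOf L)) := by rw [hPz]; infer_instance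
  have heven : 2 ∣ Nat.card (L ⧸ D.subgroupOf L) := by
    obtain ⟨j, hj⟩ := S.2 ⟨x, hxS⟩
    have hj' : (f x') ^ 2 ^ j = 1 := by
      rw [← map_pow, show x' ^ 2 ^ j = 1 from Subtype.ext (congrArg Subtype.val hj :), map_one]
    obtain ⟨l, -, hl⟩ := (Nat.dvd_prime_pow Nat.prime_two).1 (orderOf_dvd_of_pow_eq_one hj')
    have hl0 : l ≠ 0 := fun e => by
      rw [e, pow_zero] at hl
      exact hxD ((hfD x').1 (orderOf_eq_one_iff.1 hl))
    exact (hl ▸ dvd_pow_self 2 hl0).trans (orderOf_dvd_natCard (f x'))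
  have hmin : (Nat.card (L ⧸ D.subgroupOf L)).minFac = 2 := (Nat.minFac_eq_two_iff _).2 heven
  have hle := IsCyclic.normalizer_le_centralizer hmin hPc
  set φ := MonoidHom.transferSylow P hle with hφ
  set K : Subgroup G := (φ.comp f).ker.map L.subtype with hK
  have hKL : K ≤ L := Subgroup.map_subtype_le _
  have hKn : L ≤ Subgroup.normalizer (K : Set G) := by
    refine (Subgroup.normal_subgroupOf_iff_le_normalizer hKL).1 ?_
    rw [hK, Subgroup.subgroupOf, Subgroup.comap_map_eq_self_of_injective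
      (Subgroup.subtype_injective _)]
    infer_instance
  have hgK : g ∈ K := by
    refine ⟨⟨g, hgM⟩, MonoidHom.mem_ker.2 ?_, rfl⟩
    obtain ⟨j, hj⟩ := P.2 ((φ.comp f) ⟨g, hgM⟩)
    refine orderOf_eq_one_iff.1 (Nat.eq_one_of_dvd_coprimes
      (Nat.Coprime.pow_right j (Nat.coprime_two_right.2 hgodd)) ?_ (orderOf_dvd_of_pow_eq_one hj))
    exact (orderOf_map_dvd (φ.comp f) (⟨g, hgM⟩ : L)).trans
      (dvd_of_eq (Subgroup.orderOf_coe (⟨g, hgM⟩ : L)).symm)
  have hMK : M ≤ K := fun m hm => ⟨⟨m, hSM (hMS hm)⟩, MonoidHom.mem_ker.2 (by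
    rw [MonoidHom.comp_apply, (hfD _).2 (hMD m hm), map_one]), rfl⟩
  have hKne : K ≠ L := fun e => by
    have hx : x ∈ K := e ▸ hSM hxS
    obtain ⟨y, hy, hyx⟩ := hx
    have hyx' : y = x' := Subtype.ext hyx
    subst hyx'
    have h1 : f x' ∈ φ.ker := MonoidHom.mem_ker.2 (MonoidHom.mem_ker.1 hy)
    have h2 := (MonoidHom.ker_transferSylow_isComplement' P hle).disjoint.le_bot
      ⟨h1, hPz ▸ Subgroup.mem_zpowers _⟩
    exact hxD ((hfD x').1 (Subgroup.mem_bot.1 h2))
  have hKab := comm_of_normal hSN hKL hKn hKne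
  exact hgD (Subgroup.mem_centralizer_iff.2 fun m hm => comm_mem hKab (hMK hm) hgK)

lemma sylow_not_cyclic [IsSimpleGroup G] (hna : ¬ IsMulCommutative G) (h2 : 2 ∣ Nat.card G)
    (S : Sylow 2 G) : ¬ IsCyclic (S : Subgroup G) := fun hc => by
  haveI : Fact (Nat.Prime 2) := ⟨Nat.prime_two⟩
  have hle := IsCyclic.normalizer_le_centralizer ((Nat.minFac_eq_two_iff _).2 h2) hc
  exact no_complement hna h2 ⟨S, _, MonoidHom.normal_ker _,
    MonoidHom.ker_transferSylow_isComplement' S hle⟩

omit [Finite G] in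
lemma two_dvd_card_of_simple [Finite G] [IsSimpleGroup G] (hna : ¬ IsMulCommutative G) :
    2 ∣ Nat.card G := by
  by_contra hd
  have hs := S0205.result (G := G) (Nat.odd_iff.2 (by omega))
  exact hna ⟨⟨(IsSimpleGroup.comm_iff_isSolvable).2 hs⟩⟩

/-- The centralisers of involutions are abelian. -/
lemma centralizer_comm [IsSimpleGroup G] (hna : ¬ IsMulCommutative G) (hSN : SelfNorm G)
    {t : G} (ht : orderOf t = 2) :
    IsMulCommutative (Subgroup.centralizer ({t} : Set G)) := by
  haveI : Fact (Nat.Prime 2) := ⟨Nat.prime_two⟩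
  obtain ⟨S, hS⟩ := (IsPGroup.of_card (p := 2) (G := Subgroup.zpowers t) (n := 1)
    (by rw [Nat.card_zpowers, ht, pow_one])).exists_le_sylow
  have htS : t ∈ (S : Subgroup G) := hS (Subgroup.mem_zpowers t)
  have hSab := sylow_comm hna hSN S
  set C := Subgroup.centralizer ({t} : Set G) with hC
  have hSC : (S : Subgroup G) ≤ C := fun s hs =>
    Subgroup.mem_centralizer_singleton_iff.2 (comm_mem hSab hs htS)
  let P : Sylow 2 C := S.subtype hSC
  haveI : IsMulCommutative (P : Subgroup C) := isComm_of fun a ha b hb =>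
    Subtype.ext (comm_mem hSab ha hb)
  open scoped IsMulCommutative in
  let φ : C →* (P : Subgroup C) := MonoidHom.transfer (MonoidHom.id (P : Subgroup C))
  set t' : C := ⟨t, hSC htS⟩ with ht'
  have hkey : ∀ (k : ℕ) (g₀ : C), g₀⁻¹ * t' ^ k * g₀ ∈ (P : Subgroup C) →
      g₀⁻¹ * t' ^ k * g₀ = t' ^ k := fun k g₀ _ => by
    have h1 : Commute g₀ t' := Subtype.ext (Subgroup.mem_centralizer_singleton_iff.1 g₀.2)
    rw [mul_assoc, ← (h1.pow_right k).eq, inv_mul_cancel_left]
  have hφt : φ t' ≠ 1 := by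
    intro h0
    open scoped IsMulCommutative in
    rw [show φ t' = _ from MonoidHom.transfer_eq_pow (MonoidHom.id (P : Subgroup C)) t' hkey] at h0
    have h1 : t' ^ (P : Subgroup C).index = 1 := congrArg Subtype.val h0
    have h2 : t' ≠ 1 := fun e => by
      have : t = 1 := congrArg Subtype.val e
      rw [this, orderOf_one] at ht; omega
    have h3 : orderOf t' = 2 := by rw [ht', Subgroup.orderOf_mk, ht]
    exact P.not_dvd_index ((dvd_of_eq h3.symm).trans (orderOf_dvd_of_pow_eq_one h1))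
  set K : Subgroup G := φ.ker.map C.subtype with hK
  have hKC : K ≤ C := Subgroup.map_subtype_le _
  have hKn : C ≤ Subgroup.normalizer (K : Set G) := by
    refine (Subgroup.normal_subgroupOf_iff_le_normalizer hKC).1 ?_
    rw [hK, Subgroup.subgroupOf, Subgroup.comap_map_eq_self_of_injective
      (Subgroup.subtype_injective _)]
    infer_instance
  have hKab := comm_of_normal hSN hKC hKn fun e => hφt (by
    have hm : t ∈ K := e ▸ hSC htS
    obtain ⟨y, hy, hyt⟩ := hm
    rw [show t' = y from Subtype.ext hyt.symm]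
    exact MonoidHom.mem_ker.1 hy)
  -- the elements of odd order
  set O : Subgroup G := Subgroup.closure {x : G | x ∈ C ∧ Odd (orderOf x)} with hO
  have hOK : O ≤ K := by
    refine (Subgroup.closure_le _).2 ?_
    rintro x ⟨hx, hodd⟩
    refine ⟨⟨x, hx⟩, MonoidHom.mem_ker.2 ?_, rfl⟩
    obtain ⟨j, hj⟩ := P.2 (φ ⟨x, hx⟩)
    refine orderOf_eq_one_iff.1 (Nat.eq_one_of_dvd_coprimes
      (Nat.Coprime.pow_right j (Nat.coprime_two_right.2 hodd)) ?_ (orderOf_dvd_of_pow_eq_one hj))
    exact (orderOf_map_dvd φ (⟨x, hx⟩ : C)).trans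
      (dvd_of_eq (Subgroup.orderOf_coe (⟨x, hx⟩ : C)).symm)
  have hOC : O ≤ C := hOK.trans hKC
  have hconj : ∀ c ∈ C, ∀ x ∈ O, c * x * c⁻¹ ∈ O := by
    intro c hc x hx
    have hle : O.map (MulAut.conj c).toMonoidHom ≤ O := by
      rw [hO, MonoidHom.map_closure]
      refine Subgroup.closure_mono ?_
      rintro _ ⟨y, ⟨hy, hyo⟩, rfl⟩
      exact ⟨mul_mem (mul_mem hc hy) (inv_mem hc), by
        rwa [MulEquiv.coe_toMonoidHom, MulEquiv.orderOf_eq]⟩
    exact hle ⟨x, hx, rfl⟩
  have hCO : C ≤ Subgroup.normalizer (O : Set G) := fun c hc =>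
    Subgroup.mem_normalizer_iff.2 fun x => ⟨hconj c hc x, fun hx => by
      have := hconj c⁻¹ (inv_mem hc) _ hx
      rwa [inv_inv, show c⁻¹ * (c * x * c⁻¹) * c = x by group] at this⟩
  -- elements of `O` have odd order
  have hOodd : ∀ x ∈ O, Odd (orderOf x) := by
    intro x hx
    let U : Subgroup G :=
      { carrier := {y | y ∈ O ∧ Odd (orderOf y)}
        one_mem' := ⟨one_mem _, by rw [orderOf_one]; exact odd_one⟩
        mul_mem' := fun {a b} ha hb => ⟨mul_mem ha.1 hb.1, Odd.of_dvd_nat (ha.2.mul hb.2)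
          (Commute.orderOf_mul_dvd_mul_orderOf (comm_mem hKab (hOK ha.1) (hOK hb.1)))⟩
        inv_mem' := fun {a} ha => ⟨inv_mem ha.1, by rw [orderOf_inv]; exact ha.2⟩ }
    have hle : O ≤ U := by
      refine (Subgroup.closure_le _).2 ?_
      exact fun y hy => ⟨Subgroup.subset_closure hy, hy.2⟩
    exact (hle hx).2
  have hSO : (S : Subgroup G) ≤ Subgroup.normalizer (O : Set G) := hSC.trans hCO
  have hgen : O ⊔ (S : Subgroup G) = C := by
    refine le_antisymm (sup_le hOC hSC) ?_
    by_contra hne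
    set U := O ⊔ (S : Subgroup G) with hU
    have hUC : U ≤ C := sup_le hOC hSC
    have hi : (U.subgroupOf C).index ≠ 1 := fun e =>
      hne (Subgroup.subgroupOf_eq_top.1 (Subgroup.index_eq_one.1 e))
    obtain ⟨r, hr, hrd⟩ := Nat.exists_prime_and_dvd hi
    haveI := Fact.mk hr
    obtain ⟨R⟩ := (inferInstance : Nonempty (Sylow r C))
    refine R.not_dvd_index (hrd.trans (Subgroup.index_dvd_of_le ?_))
    by_cases hr2 : r = 2
    · subst hr2
      exfalso
      exact P.not_dvd_index (hrd.trans (Subgroup.index_dvd_of_le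
        fun y hy => Subgroup.mem_sup_right hy))
    intro y hy
    refine Subgroup.mem_sup_left (Subgroup.subset_closure ⟨y.2, ?_⟩)
    obtain ⟨j, hj⟩ := R.2 ⟨y, hy⟩
    have hj' : (y : G) ^ r ^ j = 1 := congrArg (fun z : (R : Subgroup C) => ((z : C) : G)) hj
    exact Odd.of_dvd_nat ((hr.odd_of_ne_two hr2).pow) (orderOf_dvd_of_pow_eq_one hj')
  -- every subgroup of index two of `S` centralises `O`
  have hmax : ∀ S₁ : Subgroup G, S₁ ≤ S → S₁ ≠ (S : Subgroup G) → ∀ s ∈ S₁, ∀ x ∈ O,
      s * x = x * s := by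
    intro S₁ hS₁ hne s hs x hx
    set W := O ⊔ S₁ with hW
    have hWC : W ≤ C := sup_le hOC (hS₁.trans hSC)
    have hS1n : (S : Subgroup G) ≤ Subgroup.normalizer (S₁ : Set G) := fun a ha =>
      Subgroup.centralizer_le_normalizer _ (Subgroup.mem_centralizer_iff.2 fun b hb =>
        comm_mem hSab (hS₁ hb) ha)
    have hWn : C ≤ Subgroup.normalizer (W : Set G) := by
      rw [← hgen]
      refine sup_le (le_sup_left.trans Subgroup.le_normalizer) ?_
      exact (le_inf hSO hS1n).trans (Subgroup.normalizer_inf_normalizer_le_normalizer_sup O S₁)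
    have hWne : W ≠ C := by
      intro e
      refine hne (le_antisymm hS₁ fun a ha => ?_)
      have ha' : a ∈ W := e ▸ hSC ha
      have ha'' : a ∈ ((O ⊔ S₁ : Subgroup G) : Set G) := ha'
      rw [Subgroup.coe_mul_of_right_le_normalizer_left O S₁ (hS₁.trans hSO)] at ha''
      obtain ⟨o, ho, b, hb, hab⟩ := Set.mem_mul.1 ha''
      have hoS : o ∈ (S : Subgroup G) := by
        rw [eq_mul_inv_of_mul_eq hab]; exact mul_mem ha (inv_mem (hS₁ hb))
      obtain ⟨j, hj⟩ := S.2 ⟨o, hoS⟩
      have hj' : o ^ 2 ^ j = 1 := congrArg Subtype.val hj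
      have ho1 : o = 1 := orderOf_eq_one_iff.1 (Nat.eq_one_of_dvd_coprimes
        (Nat.Coprime.pow_right j (Nat.coprime_two_right.2 (hOodd o ho))) dvd_rfl
        (orderOf_dvd_of_pow_eq_one hj'))
      rw [ho1, one_mul] at hab
      exact hab ▸ hb
    exact comm_mem (comm_of_normal hSN hWC hWn hWne) (Subgroup.mem_sup_right hs)
      (Subgroup.mem_sup_left hx)
  have hSO' : ∀ s ∈ (S : Subgroup G), ∀ x ∈ O, s * x = x * s := by
    intro s hs
    refine hmax (Subgroup.zpowers s) (Subgroup.zpowers_le.2 hs) (fun e => ?_) s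
      (Subgroup.mem_zpowers s)
    have hc : IsCyclic (Subgroup.zpowers s) := inferInstance
    rw [e] at hc
    exact sylow_not_cyclic hna (two_dvd_card_of_simple hna) S hc
  rw [← hgen]
  refine isComm_of fun a ha b hb => ?_
  have hOc : ∀ x ∈ O, ∀ y ∈ O, x * y = y * x := fun x hx y hy =>
    comm_mem hKab (hOK hx) (hOK hy)
  have hle : O ⊔ (S : Subgroup G) ≤
      Subgroup.centralizer ((O ⊔ (S : Subgroup G) : Subgroup G) : Set G) := by
    have h1 : O ⊔ (S : Subgroup G) ≤ Subgroup.centralizer ((O : Set G) ∪ (S : Set G)) := by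
      refine sup_le (fun x hx => Subgroup.mem_centralizer_iff.2 ?_) fun x hx =>
        Subgroup.mem_centralizer_iff.2 ?_
      · rintro y (hy | hy)
        · exact hOc y hy x hx
        · exact hSO' y hy x hx
      · rintro y (hy | hy)
        · exact (hSO' x hx y hy).symm
        · exact comm_mem hSab hy hx
    refine h1.trans (le_of_eq ?_)
    rw [Subgroup.sup_eq_closure, Subgroup.centralizer_closure]
    rfl
  exact (Subgroup.mem_centralizer_iff.1 (hle ha) b hb).symm

/-- The hypothesis of the abelian centraliser classification. -/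
lemma hyp [IsSimpleGroup G] (hna : ¬ IsMulCommutative G) (hSN : SelfNorm G) (S : Sylow 2 G) :
    ACA.Hyp S := by
  haveI : Fact (Nat.Prime 2) := ⟨Nat.prime_two⟩
  have h2 := two_dvd_card_of_simple hna
  refine ⟨sylow_not_cyclic hna h2 S, fun hn => ?_, fun t ht => centralizer_comm hna hSN ht⟩
  rcases hn.eq_bot_or_eq_top with h | h
  · exact S.ne_bot_of_dvd_card h2 h
  · have hc := sylow_comm hna hSN S
    rw [h] at hc
    exact hna ⟨⟨fun a b => comm_mem hc (Subgroup.mem_top a) (Subgroup.mem_top b)⟩⟩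

/-- The direct implication. -/
theorem forward [IsSimpleGroup G] (hna : ¬ IsMulCommutative G) (hSN : SelfNorm G) :
    ∃ n : ℕ, 2 ≤ n ∧ (2 ^ n - 1).Prime ∧
      Nonempty (G ≃* Matrix.ProjectiveSpecialLinearGroup (Fin 2) (GaloisField 2 n)) := by
  classical
  haveI : Fact (Nat.Prime 2) := ⟨Nat.prime_two⟩
  obtain ⟨S⟩ := (inferInstance : Nonempty (Sylow 2 G))
  have h := hyp hna hSN S
  have hSA : (S : Subgroup G) ≤ ACA.cenS S := h.le_cenS
  set H := ACA.norS S with hH
  set A := (ACA.cenS S).subgroupOf H with hA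
  haveI : A.Normal := (Subgroup.normal_subgroupOf_iff_le_normalizer (ACA.cenS_le_norS S)).2
    (normalizer_le_normalizer_centralizer _)
  obtain ⟨hm3, hmodd⟩ := h.invs_card
  have hcq : Nat.card (H ⧸ A) = Nat.card h.invs := by
    have h1 := Subgroup.card_eq_card_quotient_mul_card_subgroup A
    rw [Nat.card_congr (Subgroup.subgroupOfEquivOfLe (ACA.cenS_le_norS S)).toEquiv,
      show Nat.card H = _ from h.card_norS, mul_comm] at h1
    exact (Nat.eq_of_mul_eq_mul_right Nat.card_pos h1).symm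
  haveI : Nontrivial (H ⧸ A) := Finite.one_lt_card_iff_nontrivial.1 (by omega)
  haveI : IsSimpleGroup (H ⧸ A) := by
    refine ⟨fun N hN => ?_⟩
    by_contra hN'
    push Not at hN'
    set K : Subgroup G := (N.comap (QuotientGroup.mk' A)).map H.subtype with hK
    have hKH : K ≤ H := Subgroup.map_subtype_le _
    have hKn : H ≤ Subgroup.normalizer (K : Set G) := by
      refine (Subgroup.normal_subgroupOf_iff_le_normalizer hKH).1 ?_
      rw [hK, Subgroup.subgroupOf, Subgroup.comap_map_eq_self_of_injective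
        (Subgroup.subtype_injective _)]
      infer_instance
    have hKne : K ≠ H := fun e => hN'.2 (eq_top_iff.2 fun x _ => by
      obtain ⟨y, rfl⟩ := QuotientGroup.mk'_surjective A x
      obtain ⟨z, hz, hzy⟩ : (y : G) ∈ K := by rw [e]; exact y.2
      rw [← Subtype.ext hzy]
      exact hz)
    have hKab := comm_of_normal hSN hKH hKn hKne
    refine hN'.1 (eq_bot_iff.2 fun x hx => ?_)
    obtain ⟨y, rfl⟩ := QuotientGroup.mk'_surjective A x
    refine Subgroup.mem_bot.2 ((QuotientGroup.eq_one_iff _).2 (Subgroup.mem_subgroupOf.2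
      (Subgroup.mem_centralizer_iff.2 fun s hs => ?_)))
    refine comm_mem hKab ⟨⟨s, Subgroup.le_normalizer hs⟩, Subgroup.mem_comap.2 ?_, rfl⟩
      ⟨y, hx, rfl⟩
    rw [QuotientGroup.mk'_apply, (QuotientGroup.eq_one_iff _).2 (Subgroup.mem_subgroupOf.2 (hSA hs))]
    exact one_mem _
  haveI : Group.IsSolvable (H ⧸ A) := S0205.result (by rw [hcq]; exact hmodd)
  letI : CommGroup (H ⧸ A) :=
    { (inferInstance : Group (H ⧸ A)) with mul_comm := IsSimpleGroup.comm_iff_isSolvable.2 ‹_› }
  have hprime : (Nat.card h.invs).Prime := hcq ▸ IsSimpleGroup.prime_card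
  have hcard : Nat.card (S : Subgroup G) = Nat.card h.invs + 1 := by
    haveI : Fintype (S : Subgroup G) := Fintype.ofFinite _
    have e : h.invs ≃ {a : (S : Subgroup G) // a ≠ 1} :=
      { toFun := fun t => ⟨⟨t.1, h.invs_mem t⟩, fun e => by
          have h1 := t.2.1
          rw [show t.1 = 1 from congrArg Subtype.val e, orderOf_one] at h1
          omega⟩
        invFun := fun a => ⟨a.1.1, H50.orderOf_eq_two
          (by rw [← pow_two]; exact h.core.sq _ a.1.2) fun e => a.2 (Subtype.ext e),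
          Subgroup.le_normalizer a.1.2⟩
        left_inv := fun _ => rfl
        right_inv := fun _ => rfl }
    have : 0 < Nat.card (S : Subgroup G) := Nat.card_pos
    rw [Nat.card_congr e, Nat.card_eq_fintype_card, Nat.card_eq_fintype_card,
      Fintype.card_subtype_compl, Fintype.card_subtype_eq]
    rw [Nat.card_eq_fintype_card] at this
    omega
  obtain ⟨n, hn⟩ := IsPGroup.iff_card.1 S.2
  have hn2 : 2 ≤ n := by
    by_contra hlt
    have : 2 ^ n ≤ 2 ^ 1 := Nat.pow_le_pow_right two_pos (by omega)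
    omega
  obtain ⟨F, hF, hFF, A', hA', hA'F, hchar, hA'odd, ⟨e⟩⟩ := h.exists_iso
  -- the abelian factor is trivial
  have hA1 : Subsingleton A' := by
    set π : G →* Matrix.SpecialLinearGroup (Fin 2) F :=
      (MonoidHom.fst _ _).comp e.toMonoidHom with hπ
    rcases π.normal_ker.eq_bot_or_eq_top with hk | hk
    · refine ⟨fun a b => ?_⟩
      have key : ∀ c : A', c = 1 := fun c => by
        have h1 : e.symm (1, c) ∈ π.ker := MonoidHom.mem_ker.2 (by simp [hπ])
        rw [hk, Subgroup.mem_bot] at h1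
        have h2 := congrArg e h1
        rw [e.apply_symm_apply, map_one] at h2
        exact congrArg Prod.snd h2
      rw [key a, key b]
    · exfalso
      refine hna ⟨⟨fun a b => e.injective (Prod.ext ?_ ?_)⟩⟩
      · have ha : (e a).1 = 1 := MonoidHom.mem_ker.1 (hk ▸ Subgroup.mem_top a)
        have hb : (e b).1 = 1 := MonoidHom.mem_ker.1 (hk ▸ Subgroup.mem_top b)
        simp [ha, hb]
      · simp [mul_comm]
  haveI := uniqueOfSubsingleton (1 : A')
  let e1 : G ≃* Matrix.SpecialLinearGroup (Fin 2) F := e.trans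
    { toFun := Prod.fst
      invFun := fun x => (x, 1)
      left_inv := fun x => Prod.ext rfl (Subsingleton.elim _ _)
      right_inv := fun _ => rfl
      map_mul' := fun _ _ => rfl }
  obtain ⟨f, hp, hf⟩ := FiniteField.card F 2
  have hfq : Fintype.card F = 2 ^ n := by
    have h1 : Nat.card G = 2 ^ (f : ℕ) * ((2 ^ (f : ℕ)) ^ 2 - 1) := by
      rw [Nat.card_congr e1.toEquiv, H6.card_sl2 hf]
    have hne : (2 ^ (f : ℕ)) ^ 2 - 1 ≠ 0 := by
      have : 1 < (2 ^ (f : ℕ)) ^ 2 := Nat.one_lt_pow two_ne_zero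
        (Nat.one_lt_pow f.ne_zero one_lt_two)
      omega
    have hnd : ¬ 2 ∣ (2 ^ (f : ℕ)) ^ 2 - 1 := by
      have : 2 ∣ (2 ^ (f : ℕ)) ^ 2 := dvd_pow (dvd_pow_self 2 f.ne_zero) two_ne_zero
      omega
    have h2 := S.card_eq_multiplicity
    rw [hn, h1, Nat.factorization_mul (by positivity) hne, Finsupp.add_apply,
      Nat.prime_two.factorization_pow, Finsupp.single_eq_same,
      Nat.factorization_eq_zero_of_not_dvd hnd, add_zero] at h2
    rw [hf, h2]
  refine ⟨n, hn2, ?_, ?_⟩
  · have : 2 ^ n - 1 = Nat.card h.invs := by omega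
    rw [this]; exact hprime
  have hcen : Subgroup.center (Matrix.SpecialLinearGroup (Fin 2) F) = ⊥ := by
    refine Subgroup.card_eq_one.1 ?_
    rw [H6.card_center_sl2 hfq]
    refine Nat.prime_two.coprime_iff_not_dvd.2 fun hd => ?_
    have : 2 ∣ 2 ^ n := dvd_pow_self 2 (by omega)
    have := Nat.one_le_two_pow (n := n)
    omega
  let π' := QuotientGroup.mk' (Subgroup.center (Matrix.SpecialLinearGroup (Fin 2) F))
  have hbij : Function.Bijective π' :=
    ⟨(MonoidHom.ker_eq_bot_iff _).1 (by rw [QuotientGroup.ker_mk', hcen]),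
      QuotientGroup.mk'_surjective _⟩
  haveI := Fintype.ofFinite (GaloisField 2 n)
  have hcardG : Fintype.card F = Fintype.card (GaloisField 2 n) := by
    rw [hfq, ← Nat.card_eq_fintype_card, GaloisField.card 2 n (by omega)]
  obtain ⟨e2⟩ := H31.nonempty_psl_ringEquiv (FiniteField.ringEquivOfCardEq hcardG) (Fin 2)
  exact ⟨(e1.trans (MulEquiv.ofBijective π' hbij)).trans e2⟩

end Cfsg.Agent.H7.SelfNormal
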